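import Cfsg.Agent.Lib.Helper58.SlSyl.Defs

set_option autoImplicit false

namespace Cfsg.Agent.Lib.Helper58.SlSyl

/-- [L6] -/
theorem sq_eq_one_of_two_elt {F : Type*} [Field F] [Fintype F] (hF : Fintype.card F % 4 = 3)
    (u : Fˣ) (k : ℕ) (hu : u ^ 2 ^ k = 1) : u ^ 2 = 1 := by
  classical
  have h1 : orderOf u ∣ 2 ^ k := orderOf_dvd_of_pow_eq_one hu
  have h2 : orderOf u ∣ Fintype.card F - 1 := by
    have := orderOf_dvd_card (x := u)
    rwa [Fintype.card_units] at this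
  obtain ⟨j, hj, hj2⟩ := (Nat.dvd_prime_pow Nat.prime_two).1 h1
  rw [hj2] at h2
  have hj1 : j ≤ 1 := by
    by_contra hcon
    push Not at hcon
    have : (4 : ℕ) ∣ 2 ^ j := by
      have : (2 : ℕ) ^ 2 ∣ 2 ^ j := pow_dvd_pow 2 hcon
      simpa using this
    have h4 := this.trans h2
    omega
  have : orderOf u ∣ 2 := by
    rw [hj2]
    have : (2 : ℕ) ^ j ∣ 2 ^ 1 := pow_dvd_pow 2 hj1
    simpa using this
  exact orderOf_dvd_iff_pow_eq_one.1 this

/-- [H3] -/
theorem neg_one_mem_sylow {F : Type*} [Field F] [Fintype F] (Q : Sylow 2 Fˣ) : (-1 : Fˣ) ∈ Q := by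
  classical
  have hp : IsPGroup 2 (Subgroup.zpowers (-1 : Fˣ)) := by
    rintro ⟨x, hx⟩
    refine ⟨1, ?_⟩
    obtain ⟨k, rfl⟩ := Subgroup.mem_zpowers_iff.1 hx
    ext
    simp only [pow_one, Subgroup.coe_pow, Subgroup.coe_one]
    rw [← zpow_natCast, ← zpow_mul, mul_comm, zpow_mul]
    simp
  obtain ⟨Q', hQ'⟩ := hp.exists_le_sylow
  have : Q' = Q := by
    obtain ⟨g, hg⟩ := MulAction.exists_smul_eq Fˣ Q' Q
    rw [← hg]
    exact (Sylow.smul_eq_of_normal).symm
  rw [← this]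
  exact hQ' (Subgroup.mem_zpowers _)

/-- [H2c] -/
theorem sign_eq_one_or_fixed (n : ℕ) (hn : 4 ∣ n) (σ : Equiv.Perm (Fin n)) (hσ : σ ^ 2 = 1) :
    Equiv.Perm.sign σ = 1 ∨ ∃ i, σ i = i := by
  classical
  by_cases hfix : ∃ i, σ i = i
  · exact Or.inr hfix
  left
  push Not at hfix
  have hsupp : σ.support = Finset.univ := by
    ext i; simp [hfix i]
  have hall : ∀ c ∈ σ.cycleType, c = 2 := by
    intro c hc
    have h2 := Equiv.Perm.two_le_of_mem_cycleType hc
    have hd : c ∣ orderOf σ := Equiv.Perm.dvd_of_mem_cycleType hc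
    have hd2 : orderOf σ ∣ 2 := orderOf_dvd_of_pow_eq_one hσ
    have := Nat.le_of_dvd (by norm_num) (hd.trans hd2)
    omega
  have hrep : σ.cycleType = Multiset.replicate (Multiset.card σ.cycleType) 2 :=
    Multiset.eq_replicate_card.2 hall
  have hsum : σ.cycleType.sum = n := by
    rw [Equiv.Perm.sum_cycleType, hsupp]; simp
  have hsum2 : σ.cycleType.sum = Multiset.card σ.cycleType * 2 := by
    conv_lhs => rw [hrep]
    simp
  rw [Equiv.Perm.sign_of_cycleType, hsum]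
  obtain ⟨t, rfl⟩ := hn
  have hc : Multiset.card σ.cycleType = 2 * t := by omega
  rw [hc]
  have : 4 * t + 2 * t = 2 * (3 * t) := by ring
  rw [this, pow_mul]
  simp

end Cfsg.Agent.Lib.Helper58.SlSyl
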