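import Cfsg.Agent.Lib.Helper58.WrSyl.Defs

set_option autoImplicit false

namespace Cfsg.Agent.Lib.Helper58.SlSyl

/-- the sign of a permutation as a unit of `F` -/
noncomputable def sgnU (F : Type*) [Field F] (n : ℕ) : Equiv.Perm (Fin n) →* Fˣ :=
  (Units.map (Int.castRingHom F).toMonoidHom).comp Equiv.Perm.sign

end Cfsg.Agent.Lib.Helper58.SlSyl
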