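import Cfsg.Agent.Lib.Helper58.SlSyl.Defs
import Cfsg.Agent.S4623

set_option autoImplicit false

namespace Cfsg.Agent.Lib.Helper58.SlSyl

/-- [H2b] -/
theorem sylow_perm_gen_invol (n : ℕ) (R : Sylow 2 (Equiv.Perm (Fin n))) :
    (R : Subgroup (Equiv.Perm (Fin n))) ≤
      Subgroup.closure {σ : Equiv.Perm (Fin n) | σ ∈ R ∧ σ ^ 2 = 1} := by
  classical
  haveI : Fact (Nat.Prime 2) := ⟨Nat.prime_two⟩
  obtain ⟨W, hc, hg, -⟩ := Cfsg.Agent.S4623.main_exists 2 n
  have hcard : Nat.card W = 2 ^ (Nat.card (Equiv.Perm (Fin n))).factorization 2 := by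
    rw [hc, Nat.card_perm, Nat.card_eq_fintype_card, Fintype.card_fin,
      Nat.factorization_def _ Nat.prime_two]
  obtain ⟨g, hg2⟩ := MulAction.exists_smul_eq (Equiv.Perm (Fin n)) (Sylow.ofCard W hcard) R
  have h1 := Cfsg.Agent.S4623.Gen.map hg (MulAut.conj g).toMonoidHom
  have h2 : (R : Subgroup (Equiv.Perm (Fin n))) = W.map (MulAut.conj g).toMonoidHom := by
    rw [← hg2]
    rfl
  have h3 : Cfsg.Agent.S4623.Gen 2 (R : Subgroup (Equiv.Perm (Fin n))) := by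
    rw [h2]; exact h1
  exact h3

end Cfsg.Agent.Lib.Helper58.SlSyl
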