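import Cfsg.Agent.Lib.Helper58.SlSyl.Defs
import Cfsg.Agent.Lib.Helper58.SlSyl.Small
import Cfsg.Agent.Lib.Helper58.SlSyl.H2b
import Cfsg.Agent.Lib.Helper28.SlSyl.DT
import Cfsg.Agent.Lib.Helper28.SlSyl.L1
import Cfsg.Agent.Lib.Helper28.SlSyl.L2a
import Cfsg.Agent.Lib.Helper28.SlSyl.L2b
import Cfsg.Agent.Lib.Helper96.SlSyl.G4p
import Cfsg.Agent.Lib.Helper96.SlSyl.H1
import Cfsg.Agent.Lib.Helper96.SlSyl.H2a
import Cfsg.Agent.Lib.Helper98.WrSyl.EBase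
import Cfsg.Agent.Lib.Helper58.OmSyl.Model
import Cfsg.Agent.Lib.Helper65.WrSyl.T1
import Cfsg.Agent.Lib.Helper12.WrSyl.T4
import Cfsg.Agent.Lib.Helper23.WrSyl.V4
import Cfsg.Agent.Lib.Helper60.WrSyl.B1
import Cfsg.Agent.Lib.Helper60.WrSyl.B2

set_option autoImplicit false

namespace Cfsg.Agent.Lib.Helper58.SlSyl

open Cfsg Cfsg.Agent.Lib.Helper58.WrSyl Cfsg.Agent.Lib.Helper98.WrSyl
open Cfsg.Agent.Lib.Helper58.OmSyl Cfsg.Agent.Lib.Helper81.OmSyl Cfsg.Agent.Lib.Helper75.OmSyl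
open Cfsg.Agent.Lib.Helper12.WrSyl Cfsg.Agent.Lib.Helper65.WrSyl Cfsg.Agent.Lib.Helper23.WrSyl
  Cfsg.Agent.Lib.Helper60.WrSyl
open Cfsg.Agent.Lib.Helper28.SlSyl Cfsg.Agent.Lib.Helper96.SlSyl
open scoped MatrixGroups

/-- all Sylow 2-subgroups have elementary abelianization -/
def SylPC (G : Type*) [Group G] : Prop := ∀ P : Sylow 2 G, PowComm 2 (P : Subgroup G)

theorem SylPC.of_equiv {G H : Type*} [Group G] [Group H] [Finite H] (e : G ≃* H) (h : SylPC G) :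
    SylPC H := by
  intro P
  have : Fact (Nat.Prime 2) := ⟨Nat.prime_two⟩
  have : Finite G := Finite.of_equiv H e.symm.toEquiv
  obtain ⟨T⟩ : Nonempty (Sylow 2 G) := inferInstance
  obtain ⟨f⟩ := sylow_equiv 2 e.toMonoidHom e.injective (by rw [Nat.card_congr e.toEquiv]) P T
  exact PowComm.of_equiv f.symm (h T)

abbrev KD (F : Type*) [Field F] (n : ℕ) : Subgroup (GL (Fin n) F) :=
  (Matrix.GeneralLinearGroup.det : GL (Fin n) F →* Fˣ).ker

theorem comm_le_comap_ker {Y G A : Type*} [Group Y] [Group G] [CommGroup A] (Φ : Y →* G)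
    (d : G →* A) : commutator Y ≤ d.ker.comap Φ := by
  intro x hx
  rw [Subgroup.mem_comap, MonoidHom.mem_ker, ← MonoidHom.comp_apply]
  exact Abelianization.commutator_subset_ker (d.comp Φ) hx

/-- `q ≡ 3 mod 4`, `m ≥ 3` -/
theorem sylPC_ker_three {F : Type*} [Field F] [Fintype F] (hF : Fintype.card F % 4 = 3) (m : ℕ)
    (hm : 3 ≤ m) : SylPC (KD F (2 * m)) := by
  intro P
  have : Fact (Nat.Prime 2) := ⟨Nat.prime_two⟩
  obtain ⟨Φ, hΦ, hdet⟩ := exists_embed_gl_even_det (F := F) m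
  set Φ' : Wr (GL (Fin 2) F) m × (Fin 0 → ℤˣ) →* GL (Fin (2 * m)) F :=
    Φ.comp (MonoidHom.fst _ _) with hΦ'
  have hinj : Function.Injective Φ' := by
    rintro ⟨a, c⟩ ⟨b, d⟩ h
    have h1 : a = b := hΦ h
    have h2 : c = d := Subsingleton.elim _ _
    rw [h1, h2]
  obtain ⟨Q⟩ : Nonempty (Sylow 2 (GL (Fin 2) F)) := inferInstance
  obtain ⟨R⟩ : Nonempty (Sylow 2 (Equiv.Perm (Fin m))) := inferInstance
  obtain ⟨T, hT⟩ := exists_std_sylow_prod 2 m (isPGroup_signs 0) Q R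
  obtain ⟨e⟩ := sylow_inf_equiv 2 Φ' hinj (by
    rw [val_gl_even hF m, Nat.card_prod]
    simp) (KD F (2 * m)) P T
  refine PowComm.of_equiv e.symm ?_
  refine powComm_core 2 m hm (Q : Subgroup _) (R : Subgroup _) (powComm_gl2 hF Q)
    (fun x => (Cfsg.Agent.S4623.result 2 m R default).1 x) (fun c => Subsingleton.elim _ _) _
    (comm_le_comap_ker Φ' _) ?_ _ hT
  intro σ
  rw [Subgroup.mem_comap, MonoidHom.mem_ker]
  show Matrix.GeneralLinearGroup.det (Φ (SemidirectProduct.inr σ)) = 1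
  rw [hdet]
  simp

theorem top_sylow_perm_two (R : Sylow 2 (Equiv.Perm (Fin 2))) (σ : Equiv.Perm (Fin 2)) : σ ∈ R := by
  have : Fact (Nat.Prime 2) := ⟨Nat.prime_two⟩
  have h1 : Nat.card (R : Subgroup (Equiv.Perm (Fin 2))) = 2 := by
    rw [Sylow.card_eq_multiplicity, Nat.card_perm]
    simp [Nat.Prime.factorization_self Nat.prime_two]
  have h3 : (R : Subgroup (Equiv.Perm (Fin 2))) = ⊤ := by
    apply Subgroup.eq_top_of_card_eq
    rw [h1, Nat.card_perm]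
    simp
  have : σ ∈ (R : Subgroup (Equiv.Perm (Fin 2))) := by rw [h3]; trivial
  exact this

theorem sylPC_ker_of_sl {F : Type*} [Field F] [Fintype F] (n : ℕ)
    (h : SylPC (Matrix.SpecialLinearGroup (Fin n) F)) : SylPC (KD F n) := by
  obtain ⟨e⟩ := sl_equiv_ker_det (F := F) n
  exact SylPC.of_equiv e h

theorem sylPC_sl_of_ker {F : Type*} [Field F] [Fintype F] (n : ℕ)
    (h : SylPC (KD F n)) : SylPC (Matrix.SpecialLinearGroup (Fin n) F) := by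
  obtain ⟨e⟩ := sl_equiv_ker_det (F := F) n
  exact SylPC.of_equiv e.symm h

/-- `q ≡ 3 mod 4`, `m = 2` -/
theorem sylPC_ker_three_two {F : Type*} [Field F] [Fintype F] (hF : Fintype.card F % 4 = 3) :
    SylPC (KD F (2 * 2)) := by
  intro P
  have : Fact (Nat.Prime 2) := ⟨Nat.prime_two⟩
  have hodd : Odd (Fintype.card F) := Nat.odd_iff.mpr (by omega)
  obtain ⟨Φ, hΦ, hdet⟩ := exists_embed_gl_even_det (F := F) 2
  obtain ⟨Q⟩ : Nonempty (Sylow 2 (GL (Fin 2) F)) := inferInstance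
  obtain ⟨R⟩ : Nonempty (Sylow 2 (Equiv.Perm (Fin 2))) := inferInstance
  obtain ⟨T, hT⟩ := exists_std_sylow 2 2 Q R
  obtain ⟨e⟩ := sylow_inf_equiv 2 Φ hΦ (val_gl_even hF 2) (KD F (2 * 2)) P T
  refine PowComm.of_equiv e.symm ?_
  have hsingle : ∀ x : GL (Fin 2) F,
      (SemidirectProduct.inl (Pi.mulSingle 0 x) : Wr (GL (Fin 2) F) 2) ∈ (KD F (2 * 2)).comap Φ ↔
        Matrix.GeneralLinearGroup.det x = 1 := by
    intro x
    rw [Subgroup.mem_comap, MonoidHom.mem_ker, hdet]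
    simp [Fin.prod_univ_two]
  -- the Sylow subgroup of `ker det` in `GL_2`
  obtain ⟨P₂⟩ : Nonempty (Sylow 2 (KD F 2)) := inferInstance
  obtain ⟨e₂⟩ := sylow_inf_equiv 2 (MonoidHom.id (GL (Fin 2) F)) Function.injective_id rfl
    (KD F 2) P₂ Q
  have hpc : PowComm 2 ↥((Q : Subgroup (GL (Fin 2) F)) ⊓ (KD F 2).comap (MonoidHom.id _)) :=
    PowComm.of_equiv e₂ (sylPC_ker_of_sl 2 (powComm_sl2 hodd) P₂)
  refine powComm_two_ker (Q : Subgroup _) (powComm_gl2 hF Q) _ (comm_le_comap_ker Φ _) ?_ ?_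
    ((Q : Subgroup (GL (Fin 2) F)) ⊓ (KD F 2).comap (MonoidHom.id _)) ?_ hpc _ ?_
  · intro σ
    rw [Subgroup.mem_comap, MonoidHom.mem_ker, hdet]
    simp
  · intro x hx
    rw [hsingle, map_pow]
    obtain ⟨k, hk⟩ := (Q.isPGroup' ⟨x, hx⟩)
    apply sq_eq_one_of_two_elt hF _ k
    rw [← map_pow]
    have : x ^ 2 ^ k = 1 := congrArg Subtype.val hk
    rw [this, map_one]
  · intro x
    rw [hsingle, Subgroup.mem_inf, Subgroup.mem_comap, MonoidHom.mem_ker]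
    rfl
  · intro x
    exact ⟨fun h => ((hT x).1 h).1, fun h => (hT x).2 ⟨h, top_sylow_perm_two R _⟩⟩

/-- `q ≡ 1 mod 4`, `n = 2 ^ (j + 2)` -/
theorem sylPC_ker_one {F : Type*} [Field F] [Fintype F] (hF : Fintype.card F % 4 = 1) (j : ℕ) :
    SylPC (KD F (2 ^ (j + 2))) := by
  intro P
  have : Fact (Nat.Prime 2) := ⟨Nat.prime_two⟩
  obtain ⟨Φ, hΦ, hdet⟩ := exists_embed_mon_det (F := F) (2 ^ (j + 2))
  obtain ⟨Q⟩ : Nonempty (Sylow 2 Fˣ) := inferInstance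
  obtain ⟨E, hE, hswap⟩ := exists_swapping_two_group (j + 2)
  obtain ⟨R, hER⟩ := hE.exists_le_sylow
  obtain ⟨T, hT⟩ := exists_std_sylow 2 (2 ^ (j + 2)) Q R
  obtain ⟨e⟩ := sylow_inf_equiv 2 Φ hΦ (val_gl_one hF _) (KD F (2 ^ (j + 2))) P T
  refine PowComm.of_equiv e.symm ?_
  have hs : ∀ σ : Equiv.Perm (Fin (2 ^ (j + 2))), sgnU F _ σ = 1 ∨ sgnU F _ σ = -1 := by
    intro σ
    rcases Int.units_eq_one_or (Equiv.Perm.sign σ) with h | h
    · left; simp [sgnU, h]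
    · right
      apply Units.ext
      simp [sgnU, h]
  refine powComm_mono (2 ^ (j + 2)) (sgnU F _) (Q : Subgroup _) ?_ ?_ (R : Subgroup _)
    (sylow_perm_gen_invol _ R) ?_ ?_ _ ?_ _ hT
  · intro σ
    rcases hs σ with h | h <;> rw [h]
    · exact one_mem _
    · exact neg_one_mem_sylow Q
  · intro σ
    rcases hs σ with h | h <;> rw [h] <;> simp
  · intro i k
    obtain ⟨σ, hσ, h1, h2⟩ := hswap i k
    exact ⟨σ, hER hσ, h1, h2⟩
  · intro σ _ hσ2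
    rcases sign_eq_one_or_fixed (2 ^ (j + 2)) ⟨2 ^ j, by rw [pow_add]; ring⟩ σ hσ2 with h | h
    · left; simp [sgnU, h]
    · right; exact h
  · intro x
    rw [Subgroup.mem_comap, MonoidHom.mem_ker, hdet]

theorem rowS4627 {F : Type*} [Field F] [Fintype F] (hF : Odd (Fintype.card F)) (m : ℕ) (hm : 1 ≤ m)
    (hq : 4 ∣ Fintype.card F + 1 ∨ (4 ∣ Fintype.card F - 1 ∧ ∃ j : ℕ, m = 2 ^ j)) :
    SylPC (Matrix.SpecialLinearGroup (Fin (2 * m)) F) := by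
  have h1 : 1 < Fintype.card F := Fintype.one_lt_card
  by_cases hm1 : m = 1
  · subst hm1
    exact powComm_sl2 hF
  apply sylPC_sl_of_ker
  rcases hq with hq | ⟨hq, j, rfl⟩
  · have hq' : Fintype.card F % 4 = 3 := by omega
    by_cases hm2 : m = 2
    · subst hm2
      exact sylPC_ker_three_two hq'
    · exact sylPC_ker_three hq' m (by omega)
  · have hq' : Fintype.card F % 4 = 1 := by omega
    obtain ⟨i, rfl⟩ : ∃ i, j = i + 1 := by
      rcases j with _ | i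
      · simp at hm1
      · exact ⟨i, rfl⟩
    have : 2 * 2 ^ (i + 1) = 2 ^ (i + 2) := by ring
    rw [this]
    exact sylPC_ker_one hq' i

end Cfsg.Agent.Lib.Helper58.SlSyl
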